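import Cfsg.Agent.Depth.S.LPa
import Cfsg.Agent.Depth.S.LS

/-!
# Depth, the restriction estimate: general tools (helper53)

Duality, Parseval on a full period, the enveloping sieve with explicit parameters, dyadic levels.
-/

set_option autoImplicit false

namespace Cfsg.Agent.Depth.R

open Finset Cfsg.Agent.Depth.S
open scoped ComplexConjugate

/-- duality -/
theorem dual {ρ ι : Type*} (X : Finset ρ) (x : ρ → ℝ) (T : Finset ι) (c y : ι → ℝ) {A : ℝ} (hA : 0 ≤ A)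
    (h : ∀ γ : ρ → ℂ, ∑ t ∈ T, ‖∑ r ∈ X, γ r * ex (x r * y t)‖ ^ 2 ≤ A * ∑ r ∈ X, ‖γ r‖ ^ 2) :
    ∑ r ∈ X, ‖∑ t ∈ T, (c t : ℂ) * ex (x r * y t)‖ ^ 2 ≤ A * ∑ t ∈ T, c t ^ 2 := by
  set Φ : ρ → ℂ := fun r => ∑ t ∈ T, (c t : ℂ) * ex (x r * y t) with hΦ
  set P : ℝ := ∑ r ∈ X, ‖Φ r‖ ^ 2 with hP
  have hP0 : 0 ≤ P := sum_nonneg fun _ _ => sq_nonneg _
  have hc0 : 0 ≤ ∑ t ∈ T, c t ^ 2 := sum_nonneg fun _ _ => sq_nonneg _
  have h1 : (P : ℂ) = ∑ t ∈ T, (c t : ℂ) * ∑ r ∈ X, conj (Φ r) * ex (x r * y t) := by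
    rw [hP, Complex.ofReal_sum]
    simp only [normSq_cast, mul_sum]
    rw [sum_comm]
    refine sum_congr rfl fun r _ => ?_
    rw [hΦ]
    simp only [sum_mul]
    exact sum_congr rfl fun t _ => by ring
  have h2 : P ≤ ∑ t ∈ T, |c t| * ‖∑ r ∈ X, conj (Φ r) * ex (x r * y t)‖ := by
    have h3 : P = ‖(P : ℂ)‖ := by rw [Complex.norm_real, Real.norm_eq_abs, abs_of_nonneg hP0]
    rw [h3, h1]
    refine (norm_sum_le _ _).trans (le_of_eq (sum_congr rfl fun t _ => ?_))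
    rw [norm_mul, Complex.norm_real, Real.norm_eq_abs]
  have h3 := sum_mul_sq_le_sq_mul_sq T (fun t => |c t|) fun t => ‖∑ r ∈ X, conj (Φ r) * ex (x r * y t)‖
  have h4 := h fun r => conj (Φ r)
  simp only [sq_abs] at h3
  simp only [Complex.norm_conj] at h4
  have h5 : P ^ 2 ≤ (∑ t ∈ T, c t ^ 2) * (A * P) :=
    ((pow_le_pow_left₀ hP0 h2 2).trans h3).trans (mul_le_mul_of_nonneg_left h4 hc0)
  rcases hP0.eq_or_lt with h6 | h6
  · rw [← h6]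
    exact mul_nonneg hA hc0
  · refine le_of_mul_le_mul_right ?_ h6
    nlinarith

/-- the dual sum on a grid -/
noncomputable def FF (X : Finset ℕ) (γ : ℕ → ℂ) (x0 : ℝ) (M : ℕ) (y : ℤ) : ℝ :=
  ‖∑ r ∈ X, γ r * ex ((x0 + r / M) * y)‖ ^ 2

theorem FF_nonneg (X : Finset ℕ) (γ : ℕ → ℂ) (x0 : ℝ) (M : ℕ) (y : ℤ) : 0 ≤ FF X γ x0 M y := sq_nonneg _

theorem sum_FF {X : Finset ℕ} {M : ℕ} (hM : 0 < M) (hX : X ⊆ range M) (γ : ℕ → ℂ) (x0 : ℝ) (a : ℤ) :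
    ∑ y ∈ Ico a (a + M), FF X γ x0 M y = M * ∑ r ∈ X, ‖γ r‖ ^ 2 := by
  rw [← sum_range_shift, ← parseval_gen X (fun r => (r : ℤ)) γ hM (fun i hi j hj h => ?_) (a / M)]
  · refine sum_congr rfl fun k _ => ?_
    have h1 : ∑ r ∈ X, γ r * ex ((x0 + r / M) * ((a + k : ℤ) : ℝ)) =
        ex (x0 * ((a + k : ℤ) : ℝ)) * ∑ r ∈ X, γ r * ex ((a / M + k / M) * ((r : ℤ) : ℝ)) := by
      rw [mul_sum]
      refine sum_congr rfl fun r _ => ?_
      rw [mul_left_comm, ← ex_add]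
      congr 2
      push_cast
      ring
    rw [FF, h1, norm_mul, norm_ex, one_mul]
  · have h1 := mem_range.1 (hX hi)
    have h2 := mem_range.1 (hX hj)
    have h3 := Int.eq_zero_of_abs_lt_dvd h (abs_lt.2 ⟨by omega, by omega⟩)
    omega

theorem sum_FF_le {X : Finset ℕ} {M : ℕ} (hM : 0 < M) (hX : X ⊆ range M) (γ : ℕ → ℂ) (x0 : ℝ) {a b : ℤ}
    (h : b ≤ a + M) : ∑ y ∈ Ico a b, FF X γ x0 M y ≤ M * ∑ r ∈ X, ‖γ r‖ ^ 2 := by
  rw [← sum_FF hM hX γ x0 a]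
  exact sum_le_sum_of_subset_of_nonneg (Ico_subset_Ico_right h) fun _ _ _ => FF_nonneg _ _ _ _ _

theorem exp_nat_ge (n : ℕ) : (2.7182818283 : ℝ) ^ n ≤ Real.exp n := by
  rw [← Real.exp_one_pow]
  exact pow_le_pow_left₀ (by norm_num) Real.exp_one_gt_d9.le n

theorem exp_ge (n : ℕ) {x : ℝ} (hx : 0 ≤ x) : (2.7182818283 : ℝ) ^ n * (1 + x + x ^ 2 / 2) ≤ Real.exp (n + x) := by
  rw [Real.exp_add]
  exact mul_le_mul (exp_nat_ge n) (Real.quadratic_le_exp_of_nonneg hx) (by positivity) (Real.exp_pos _).le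

theorem exp_lam {lam : ℝ} (h : 29 ≤ lam) : 10 ^ 12 ≤ Real.exp lam := by
  refine le_trans ?_ (Real.exp_le_exp.2 h)
  have := exp_nat_ge 29
  norm_num at this ⊢
  linarith

/-- the enveloping sieve for primes -/
theorem sieve (hE : LemE) (h4 : GH4) {c : ℕ} {Q lam : ℝ} {J : Finset ℕ} {j0 Y : ℕ} (hl : 29 ≤ lam) (hQ : 1 < Q)
    (hz : Real.exp lam ^ 4 ≤ Y) (hJ : ∀ j ∈ J, j0 ≤ j ∧ j < j0 + Y ∧ (60 * j + c).Prime ∧ Q < (60 * j + c : ℕ))
    (s : Finset ℕ) (x : ℕ → ℝ) (γ : ℕ → ℂ) :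
    ∑ j ∈ J, ‖∑ r ∈ s, γ r * ex (x r * j)‖ ^ 2 ≤
      (∑ j ∈ Ico ((j0 : ℤ) - (Y / 10 + 1 : ℕ)) (j0 + Y + (Y / 10 + 1 : ℕ)), ‖∑ r ∈ s, γ r * ex (x r * j)‖ ^ 2 +
        s.card * (7 * ((Y : ℝ) + (Y / 10 + 1 : ℕ)) / Real.exp lam + 100 * Q) * ∑ r ∈ s, ‖γ r‖ ^ 2) *
        (3.9936 * lam / Real.log Q) := by
  have hR1 : 1 ≤ Q ^ (2.08 : ℝ)⁻¹ := Real.one_le_rpow hQ.le (by norm_num)
  have hR2 : Q ^ (2.08 : ℝ)⁻¹ ≤ Q := by
    conv_rhs => rw [← Real.rpow_one Q]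
    exact Real.rpow_le_rpow_of_exponent_le hQ.le (by norm_num)
  have hlQ : 0 < Real.log Q := Real.log_pos hQ
  have h1 := hE 60 c (60 * primorial ⌊Real.exp lam⌋₊) (Q ^ (2.08 : ℝ)⁻¹) (Real.exp lam) J j0 Y (Y / 10 + 1) ℕ s x γ
    (dvd_mul_right _ _) hR1 (exp_lam hl)
    (fun p hp h => Dvd.dvd.mul_left (hp.dvd_primorial_iff.2 (Nat.le_floor h)) _) (by omega)
    (hz.trans (le_add_of_nonneg_right (Nat.cast_nonneg _))) fun j hj => by
      obtain ⟨h1, h2, h3, h5⟩ := hJ j hj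
      refine ⟨h1, h2, fun p hp hpR _ hd => ?_⟩
      rw [(Nat.prime_dvd_prime_iff_eq hp h3).1 hd] at hpR
      linarith
  have h2 := h4 (Real.exp lam) _ (exp_lam hl) hR1
  rw [Real.log_exp, Real.log_rpow (by linarith)] at h2
  rw [Real.rpow_inv_rpow (by linarith) (by norm_num)] at h1
  refine h1.trans ?_
  have h3 : 0 < (2.08 : ℝ)⁻¹ * Real.log Q / (1.92 * lam) := by
    have : 0 < lam := by linarith
    positivity
  refine (div_le_div_of_nonneg_left ?_ h3 h2).trans (le_of_eq ?_)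
  · have : 0 < Q := by linarith
    have := Real.exp_pos lam
    positivity
  · have : lam ≠ 0 := by linarith
    field_simp
    ring

/-- dyadic levels -/
theorem levels (η D : ℝ) (n : ℕ) : min η D ≤
    ∑ k ∈ range n, (if η * (1 / 2) ^ (k + 1) < D then η * (1 / 2) ^ (k + 1) else 0) + min (η * (1 / 2) ^ n) D := by
  induction n with
  | zero => simp
  | succ n ih =>
    rw [sum_range_succ]
    refine ih.trans ?_
    rw [add_assoc]
    refine add_le_add_right ?_ _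
    split_ifs with h
    · rw [min_eq_left h.le]
      refine (min_le_left _ _).trans (le_of_eq ?_)
      ring
    · rw [min_eq_right (not_lt.1 h), zero_add]
      exact min_le_right _ _

theorem sum_levels (a c : ℝ) (hc : 0 ≤ c) (n : ℕ) :
    ∑ k ∈ range n, (1 / 2 : ℝ) ^ (k + 1) * (a + c * (k + 1 : ℕ)) ≤ (a + 2 * c) * (1 - (1 / 2) ^ n) := by
  have h : ∑ k ∈ range n, (1 / 2 : ℝ) ^ (k + 1) * (a + c * (k + 1 : ℕ)) =
      (a + 2 * c) * (1 - (1 / 2) ^ n) - (1 / 2) ^ n * (c * n) := by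
    induction n with
    | zero => simp
    | succ n ih =>
      rw [sum_range_succ, ih]
      push_cast
      ring
  rw [h]
  have : 0 ≤ (1 / 2 : ℝ) ^ n * (c * n) := by positivity
  linarith

/-- weighted Cauchy-Schwarz inequality -/
theorem wcs {ι : Type*} (T : Finset ι) (w : ι → ℝ) (v : ι → ℂ) (hw : ∀ t ∈ T, 0 ≤ w t) :
    ‖∑ t ∈ T, (w t : ℂ) * v t‖ ^ 2 ≤ (∑ t ∈ T, w t) * ∑ t ∈ T, w t * ‖v t‖ ^ 2 := by
  have h1 : ‖∑ t ∈ T, (w t : ℂ) * v t‖ ≤ ∑ t ∈ T, w t * ‖v t‖ :=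
    (norm_sum_le _ _).trans (le_of_eq (sum_congr rfl fun t ht => by
      rw [norm_mul, Complex.norm_real, Real.norm_eq_abs, abs_of_nonneg (hw t ht)]))
  refine (pow_le_pow_left₀ (norm_nonneg _) h1 2).trans ?_
  exact sum_sq_le_sum_mul_sum_of_sq_le_mul T hw (fun t ht => mul_nonneg (hw t ht) (sq_nonneg _))
    fun t _ => le_of_eq (by ring)

/-- the number of large prime divisors -/
theorem card_primes {S : Finset ℕ} {n : ℕ} (hn : 0 < n) (h : ∀ p ∈ S, p.Prime ∧ 50000000 ≤ p ∧ p ∣ n) :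
    17.7 * (S.card : ℝ) ≤ Real.log n := by
  have h1 : 50000000 ^ S.card ≤ n :=
    (pow_card_le_prod S (fun p => p) _ fun p hp => (h p hp).2.1).trans
      (Nat.le_of_dvd hn (prod_primes_dvd n (fun p hp => (h p hp).1.prime) fun p hp => (h p hp).2.2))
  have h2 : Real.exp 17.7 ≤ 50000000 := by
    have h3 : Real.exp 17.7 * Real.exp 0.3 = Real.exp 1 ^ 18 := by
      rw [← Real.exp_add, Real.exp_one_pow]
      norm_num
    have h4 : Real.exp 1 ^ 18 ≤ 2.7182818286 ^ 18 := pow_le_pow_left₀ (Real.exp_pos _).le Real.exp_one_lt_d9.le _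
    have h5 := Real.quadratic_le_exp_of_nonneg (show (0 : ℝ) ≤ 0.3 by norm_num)
    have h6 := Real.exp_pos 17.7
    have h7 : (2.7182818286 : ℝ) ^ 18 ≤ 66000000 := by norm_num
    nlinarith
  rw [Real.le_log_iff_exp_le (by exact_mod_cast hn), mul_comm, Real.exp_nat_mul]
  refine (pow_le_pow_left₀ (Real.exp_pos _).le h2 _).trans ?_
  exact_mod_cast h1

end Cfsg.Agent.Depth.R
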