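import Cfsg.Agent.Depth.R.A
import Cfsg.Agent.Depth.D.Win
import Cfsg.Agent.Depth.L.Tw

/-!
# Depth, the restriction estimate: sums over few points (helper53)

* `partA` : the sums over primes on a small set of points;
* `partNu`, `partPhi` : the comparison weight on all points, the bilinear weight on a small set of points.
-/

set_option autoImplicit false

namespace Cfsg.Agent.Depth.R

open Finset Cfsg.Agent.Depth.S Cfsg.Agent.Depth.D

/-- the sizes -/
structure Sz (N N' M0 : ℕ) (lam : ℝ) : Prop where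
  hl : 29 ≤ lam
  hB : 61 * Real.exp lam ^ 4 ≤ BB N
  lo : 60 * N' ≤ N
  up : N ≤ 60 * N' + 238
  hM : M0 = N' + 1

variable {N N' M0 : ℕ} {lam : ℝ}

theorem Sz.z_le (h : Sz N N' M0 lam) : 61000000000000 * Real.exp lam ≤ BB N := by
  have h1 := exp_lam h.hl
  have h2 : (10 ^ 12 : ℝ) ^ 3 ≤ Real.exp lam ^ 3 := pow_le_pow_left₀ (by norm_num) h1 3
  have h3 := h.hB
  nlinarith

theorem Sz.B_ge (h : Sz N N' M0 lam) : 10 ^ 20 ≤ BB N := by
  have h1 := exp_lam h.hl
  have h2 := h.z_le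
  linarith

theorem Sz.M_ge (h : Sz N N' M0 lam) : 98490000 * BB N ≤ M0 := by
  have h1 : (N : ℝ) ≤ 60 * N' + 238 := by exact_mod_cast h.up
  have h2 := N_eq N
  have h3 := h.B_ge
  rw [h.hM]
  push_cast
  linarith

theorem Sz.M_le (h : Sz N N' M0 lam) : (M0 : ℝ) ≤ 98510000 * BB N := by
  have h1 : 60 * (N' : ℝ) ≤ N := by exact_mod_cast h.lo
  have h2 := N_eq N
  have h3 := h.B_ge
  rw [h.hM]
  push_cast
  linarith

theorem Sz.M_pos (h : Sz N N' M0 lam) : 0 < M0 := by rw [h.hM]; omega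

theorem Sz.N'_ge (h : Sz N N' M0 lam) : 10000 ≤ N' := by
  have h1 := h.M_ge
  have h2 := h.B_ge
  have h3 : (10001 : ℝ) ≤ M0 := by linarith
  have h4 : 10001 ≤ M0 := by exact_mod_cast h3
  have := h.hM
  omega

theorem SS_eq {c M : ℕ} {w : ℕ → ℝ} (hM : N' + 1 ≤ M) (hw : ∀ u, w u ≠ 0 → N' ≤ 100 * u ∧ 100 * u ≤ 84 * N') (x : ℝ) :
    SS M (aw c w) x = ∑ u ∈ range (N' + 1), (aw c w u : ℂ) * ex (x * u) := by
  refine (sum_subset (range_subset_range.2 hM) fun u _ hu => ?_).symm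
  have h1 : w u = 0 := by
    by_contra h
    have := hw u h
    rw [mem_range] at hu
    omega
  simp [aw, h1]

/-- the sums over primes on few points -/
theorem partA (hE : LemE) (h4 : GH4) (h : Sz N N' M0 lam) {c M : ℕ} {w : ℕ → ℝ} (hM : N' + 1 ≤ M)
    (hw : ∀ u, w u ≠ 0 → N' ≤ 100 * u ∧ 100 * u ≤ 84 * N') {X : Finset ℕ} (hX : X ⊆ range M0)
    (hK : (X.card : ℝ) ≤ Real.exp lam / 200) (x0 : ℝ) (hL : 0 < Real.log N - 8.02 - lam) :
    ∑ r ∈ X, ‖SS M (aw c w) (x0 + r / M0)‖ ^ 2 ≤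
      M0 * (4.1734 * lam / (Real.log N - 8.02 - lam)) * ∑ u ∈ range (N' + 1), aw c w u ^ 2 := by
  classical
  have hz := Real.exp_pos lam
  have hz1 := exp_lam h.hl
  have hl := h.hl
  have e1 := h.z_le
  have e2 := h.M_ge
  have e3 := h.B_ge
  have e4 := h.N'_ge
  have e5 : (M0 : ℝ) = N' + 1 := by rw [h.hM]; push_cast; rfl
  have hQ : 1 < (M0 : ℝ) / (50 * Real.exp lam) := by
    rw [one_lt_div (by positivity)]
    linarith
  have hQ2 : (M0 : ℝ) / (50 * Real.exp lam) ≤ M0 / 50 :=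
    div_le_div_of_nonneg_left (by positivity) (by norm_num) (by linarith)
  have hQ3 : Real.log N - 8.02 - lam ≤ Real.log ((M0 : ℝ) / (50 * Real.exp lam)) := by
    have h1 := exp_ge 8 (show (0 : ℝ) ≤ 0.02 by norm_num)
    have h2 : (3001 : ℝ) ≤ Real.exp 8.02 := le_trans (by norm_num) (h1.trans (le_of_eq (by norm_num)))
    rw [Real.le_log_iff_exp_le (by linarith), Real.exp_sub, Real.exp_sub, Real.exp_log (by rw [N_eq]; linarith),
      div_div, div_le_div_iff₀ (by positivity) (by positivity), N_eq]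
    have h3 : 5910000000 * BB N * 50 ≤ M0 * Real.exp 8.02 := by nlinarith
    nlinarith
  set T := (range (N' + 1)).filter fun u => aw c w u ≠ 0 with hT
  have h1 : ∀ x, SS M (aw c w) x = ∑ u ∈ T, (aw c w u : ℂ) * ex (x * u) := fun x => by
    rw [SS_eq hM hw, hT]
    symm
    refine sum_filter_of_ne fun u _ hu e => hu ?_
    rw [e, Complex.ofReal_zero, zero_mul]
  simp only [h1]
  refine (dual X (fun r => x0 + r / M0) T (aw c w) (fun u => u)
    (A := M0 * (4.1734 * lam / (Real.log N - 8.02 - lam))) (by positivity) fun γ => ?_).trans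
    (mul_le_mul_of_nonneg_left (sum_le_sum_of_subset_of_nonneg (filter_subset _ _) fun _ _ _ => sq_nonneg _)
      (by positivity))
  have hY : ((83 * N' / 100 + 2 : ℕ) : ℝ) + ((83 * N' / 100 + 2) / 10 + 1 : ℕ) ≤ M0 := by
    have : 83 * N' / 100 + 2 + ((83 * N' / 100 + 2) / 10 + 1) ≤ M0 := by rw [h.hM]; omega
    exact_mod_cast this
  refine (sieve hE h4 (c := c) (J := T) (j0 := N' / 100) (Y := 83 * N' / 100 + 2) hl hQ ?_ (fun u hu => ?_) X _ γ).trans ?_
  · have h2 : M0 ≤ 2 * (83 * N' / 100 + 2) := by rw [h.hM]; omega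
    have h3 : (M0 : ℝ) ≤ 2 * (83 * N' / 100 + 2 : ℕ) := by exact_mod_cast h2
    have h5 := h.hB
    have h6 : 0 ≤ Real.exp lam ^ 4 := by positivity
    linarith
  · have h2 := (mem_filter.1 hu).2
    have h3 : (60 * u + c).Prime := by
      by_contra h3
      exact h2 (if_neg h3)
    have h5 : w u ≠ 0 := fun e => h2 (by simp [aw, e])
    obtain ⟨h6, h7⟩ := hw u h5
    refine ⟨by omega, by omega, h3, hQ2.trans_lt ?_⟩
    have h8 : M0 < 50 * (60 * u + c) := by rw [h.hM]; omega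
    have h9 : (M0 : ℝ) < 50 * (60 * u + c : ℕ) := by exact_mod_cast h8
    linarith
  · have h2 := sum_FF_le h.M_pos hX γ x0 (a := ((N' / 100 : ℕ) : ℤ) - ((83 * N' / 100 + 2) / 10 + 1 : ℕ))
      (b := (N' / 100 : ℕ) + (83 * N' / 100 + 2 : ℕ) + ((83 * N' / 100 + 2) / 10 + 1 : ℕ)) (by rw [h.hM]; omega)
    have hG : 0 ≤ ∑ r ∈ X, ‖γ r‖ ^ 2 := sum_nonneg fun _ _ => sq_nonneg _
    have h3 : (X.card : ℝ) * (7 * (((83 * N' / 100 + 2 : ℕ) : ℝ) + ((83 * N' / 100 + 2) / 10 + 1 : ℕ)) / Real.exp lam +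
        100 * (M0 / (50 * Real.exp lam))) ≤ 0.045 * M0 := by
      refine (mul_le_mul hK (add_le_add_left (div_le_div_of_nonneg_right
        (mul_le_mul_of_nonneg_left hY (by norm_num)) hz.le) _) (by positivity) (by positivity)).trans (le_of_eq ?_)
      field_simp
      ring
    have h5 : 3.9936 * lam / Real.log ((M0 : ℝ) / (50 * Real.exp lam)) ≤ 3.9936 * lam / (Real.log N - 8.02 - lam) :=
      div_le_div_of_nonneg_left (by positivity) hL hQ3
    refine (mul_le_mul (add_le_add h2 (mul_le_mul_of_nonneg_right h3 hG)) h5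
      (div_nonneg (by positivity) (Real.log_pos hQ).le) (by positivity)).trans ?_
    have h6 : 0 ≤ M0 * (lam / (Real.log N - 8.02 - lam)) * ∑ r ∈ X, ‖γ r‖ ^ 2 := by positivity
    simp only [mul_div_assoc]
    nlinarith

theorem win_facts : ∀ s, s < 8 → 847872 ≤ Iw s ∧ Ew s ≤ 27600000 ∧ 2826240 ≤ Yw s ∧ n2T s ≤ 2671 := by decide

theorem Tw_pos' {s : ℕ} (hs : s < 8) : 0 < Tw s := by
  have h1 : (2826240 : ℝ) ≤ Yw s := by exact_mod_cast (win_facts s hs).2.2.1
  unfold Tw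
  positivity

/-- the comparison weight -/
theorem partNu (h : Sz N N' M0 lam) (c1 : ℕ) (x0 : ℝ) :
    ∑ r ∈ range M0, ‖nuH N c1 (x0 + r / M0)‖ ^ 2 ≤ 9 * Th N ^ 2 := by
  have e2 := h.M_ge
  have e3 := h.B_ge
  have e4 := h.M_le
  have hTh : ∑ t ∈ (range 8).sigma (JW N), lw t.2 = Th N := by rw [sum_sigma]; rfl
  let v : (_ : ℕ) × ℕ → ℝ → ℂ := fun t θ => ex (θ * (c1 * t.2)) * tau t.1 (θ * (60 * t.2 + 2)) *
    ((∑ v ∈ range (60 * t.2 + 2), ex (θ * v)) / (60 * t.2 + 2))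
  have h1 : ∀ θ, nuH N c1 θ = ∑ t ∈ (range 8).sigma (JW N), (lw t.2 : ℂ) * v t θ := fun θ => by rw [sum_sigma]; rfl
  have h2 : ∀ t ∈ (range 8).sigma (JW N), ∑ r ∈ range M0, ‖v t (x0 + r / M0)‖ ^ 2 ≤ 9 := by
    rintro ⟨s, j⟩ ht
    obtain ⟨hs, hj⟩ := mem_sigma.1 ht
    rw [mem_range] at hs
    obtain ⟨hj1, hj2⟩ := inW_bounds (mem_JW.1 hj).2.1
    have hT := Tw_pos' hs
    have hY : (2826240 : ℝ) ≤ Yw s := by exact_mod_cast (win_facts s hs).2.2.1
    have hE : (Ew s : ℝ) ≤ 27600000 := by exact_mod_cast (win_facts s hs).2.1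
    have h3 : ∀ θ, ‖v ⟨s, j⟩ θ‖ = ‖∑ p ∈ range (Ew s) ×ˢ range (60 * j + 2),
        ((tw s p.1 / Tw s / (60 * j + 2) : ℝ) : ℂ) * ex (θ * ((p.1 * (60 * j + 2) + p.2 : ℕ) : ℤ))‖ := fun θ => by
      show ‖ex _ * tau s _ * _‖ = _
      rw [mul_assoc, norm_mul, norm_ex, one_mul, sum_product, tau, sum_mul]
      congr 1
      refine sum_congr rfl fun i _ => ?_
      rw [sum_div, mul_sum]
      refine sum_congr rfl fun u _ => ?_
      rw [show θ * (((i * (60 * j + 2) + u : ℕ) : ℤ) : ℝ) = θ * (60 * j + 2) * i + θ * u by push_cast; ring, ex_add]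
      push_cast
      ring
    have hlt : Ew s * (60 * j + 2) ≤ M0 := by
      have : ((Ew s * (60 * j + 2) : ℕ) : ℝ) ≤ M0 := by
        push_cast
        nlinarith
      exact_mod_cast this
    simp only [h3]
    rw [parseval_gen _ (fun p : ℕ × ℕ => ((p.1 * (60 * j + 2) + p.2 : ℕ) : ℤ)) _ h.M_pos ?_ x0, sum_product]
    · have h4 : ∀ i ∈ range (Ew s), ∑ u ∈ range (60 * j + 2), ‖((tw s i / Tw s / (60 * j + 2) : ℝ) : ℂ)‖ ^ 2 ≤
          (tw s i : ℝ) * (Yw s / (Tw s ^ 2 * (60 * j + 2))) := fun i _ => by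
        rw [sum_const, card_range, Complex.norm_real, Real.norm_eq_abs, sq_abs, nsmul_eq_mul]
        have h5 : (tw s i : ℝ) ≤ Yw s := by exact_mod_cast L.tw_le s i
        have h6 : ((60 * j + 2 : ℕ) : ℝ) * (tw s i / Tw s / (60 * j + 2)) ^ 2 =
            (tw s i : ℝ) * (tw s i / (Tw s ^ 2 * (60 * j + 2))) := by
          push_cast
          field_simp
        rw [h6]
        exact mul_le_mul_of_nonneg_left (div_le_div_of_nonneg_right h5 (by positivity)) (Nat.cast_nonneg _)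
      refine (mul_le_mul_of_nonneg_left (sum_le_sum h4) (Nat.cast_nonneg _)).trans ?_
      rw [← sum_mul, L.sum_tw_one]
      have h5 : (M0 : ℝ) * (Tw s * (Yw s / (Tw s ^ 2 * (60 * j + 2)))) = M0 / (4 * Yw s * (60 * j + 2)) := by
        unfold Tw
        field_simp
      rw [h5, div_le_iff₀ (by positivity)]
      nlinarith
    · rintro ⟨i, u⟩ hp ⟨i', u'⟩ hp' hd
      simp only [mem_product, mem_range] at hp hp'
      dsimp only at hd
      have b1 : i * (60 * j + 2) + u < M0 := by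
        have := Nat.mul_le_mul_right (60 * j + 2) (show i + 1 ≤ Ew s by omega)
        rw [add_mul] at this
        omega
      have b2 : i' * (60 * j + 2) + u' < M0 := by
        have := Nat.mul_le_mul_right (60 * j + 2) (show i' + 1 ≤ Ew s by omega)
        rw [add_mul] at this
        omega
      have b3 := Int.eq_zero_of_abs_lt_dvd hd (abs_lt.2 ⟨by omega, by omega⟩)
      have b4 : i * (60 * j + 2) + u = i' * (60 * j + 2) + u' := by omega
      have b5 : u = u' := by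
        have := congrArg (· % (60 * j + 2)) b4
        simpa [Nat.mod_eq_of_lt hp.2, Nat.mod_eq_of_lt hp'.2] using this
      subst b5
      rw [Nat.eq_of_mul_eq_mul_right (by omega) (Nat.add_right_cancel b4)]
  simp only [h1]
  refine (sum_le_sum fun r _ => wcs _ (fun t : (_ : ℕ) × ℕ => lw t.2) _ fun t _ => lw_nonneg _).trans ?_
  rw [← mul_sum, sum_comm, hTh]
  have h3 : ∑ t ∈ (range 8).sigma (JW N), ∑ r ∈ range M0, lw t.2 * ‖v t (x0 + r / M0)‖ ^ 2 ≤ Th N * 9 := by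
    rw [← hTh, sum_mul]
    refine sum_le_sum fun t ht => ?_
    rw [← mul_sum]
    exact mul_le_mul_of_nonneg_left (h2 t ht) (lw_nonneg _)
  have h4 := Th_nonneg N
  nlinarith

/-- the indices of the primes `l` -/
theorem exists_II (c1 : ℕ) : ∃ I : Finset ℕ, (I.card : ℝ) ≤ 27600000 ∧
    ∀ i, i ∈ I ↔ i < 27600000 ∧ 847872 ≤ i ∧ (60 * i + c1).Prime := by
  obtain ⟨n, hn⟩ : ∃ n : ℕ, n = 27600000 := ⟨_, rfl⟩
  refine ⟨(range n).filter fun i => 847872 ≤ i ∧ (60 * i + c1).Prime, ?_, fun i => by rw [mem_filter, mem_range, hn]⟩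
  have h := card_filter_le (range n) fun i => 847872 ≤ i ∧ (60 * i + c1).Prime
  rw [card_range] at h
  have h1 : (n : ℝ) = 27600000 := by rw [hn]; norm_num
  rw [← h1]
  exact_mod_cast h

/-- multiplicities -/
theorem sum_mult {c1 : ℕ} {μ : ℝ} (h1 : 60 * N' + 2 * c1 ≤ N) (hμ : Real.log N ≤ 17.7 * μ ∨ 27600000 ≤ μ)
    {I : Finset ℕ} (hc : (I.card : ℝ) ≤ 27600000) (hI : ∀ i ∈ I, 847872 ≤ i ∧ (60 * i + c1).Prime)
    (E : Finset ℤ) (hE : ∀ i ∈ I, ∀ j ∈ E, 0 ≤ j ∧ (60 * i + c1 : ℤ) * j + 2 * i ≤ N') (F : ℤ → ℝ)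
    (hF : ∀ y, 0 ≤ F y) :
    ∑ i ∈ I, ∑ j ∈ E, F ((60 * i + c1 : ℤ) * j + 2 * i) ≤ μ * ∑ y ∈ Ico (0 : ℤ) (N' + 1), F y := by
  classical
  rw [← sum_product' (f := fun (i : ℕ) (j : ℤ) => F ((60 * i + c1 : ℤ) * j + 2 * i)),
    ← sum_fiberwise_of_maps_to (t := Ico (0 : ℤ) (N' + 1)) (g := fun p : ℕ × ℤ => (60 * p.1 + c1 : ℤ) * p.2 + 2 * p.1)
      fun p hp => by
        obtain ⟨a1, a2⟩ := hE _ (mem_product.1 hp).1 _ (mem_product.1 hp).2
        exact mem_Ico.2 ⟨by positivity, by omega⟩, mul_sum]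
  refine sum_le_sum fun y hy => ?_
  rw [sum_congr rfl fun p hp => congrArg F (mem_filter.1 hp).2, sum_const, nsmul_eq_mul]
  refine mul_le_mul_of_nonneg_right ?_ (hF y)
  obtain ⟨y0, y1⟩ := mem_Ico.1 hy
  lift y to ℕ using y0
  set P := (I ×ˢ E).filter fun p : ℕ × ℤ => (60 * p.1 + c1 : ℤ) * p.2 + 2 * p.1 = y with hP
  have hm : ∀ p ∈ P, p.1 ∈ I ∧ 0 ≤ p.2 ∧ (60 * p.1 + c1 : ℤ) * p.2 + 2 * p.1 = y := fun p hp => by
    obtain ⟨a1, a2⟩ := mem_filter.1 hp
    exact ⟨(mem_product.1 a1).1, (hE _ (mem_product.1 a1).1 _ (mem_product.1 a1).2).1, a2⟩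
  have hinj : Set.InjOn (fun p : ℕ × ℤ => p.1) P := by
    rintro ⟨i, j⟩ hp ⟨i', j'⟩ hp' (rfl : i = i')
    obtain ⟨a1, -, a2⟩ := hm _ hp
    obtain ⟨-, -, a3⟩ := hm _ hp'
    have a4 := (hI _ a1).1
    have a5 : (60 * i + c1 : ℤ) * j = (60 * i + c1 : ℤ) * j' := by linarith
    rw [mul_left_cancel₀ (by omega) a5]
  rcases hμ with hμ | hμ
  · have h2 : 0 < 60 * y + 2 * c1 + 0 ∨ P = ∅ := by
      rcases P.eq_empty_or_nonempty with h | ⟨p, hp⟩
      · exact Or.inr h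
      · obtain ⟨a1, a2, a3⟩ := hm p hp
        have a4 := (hI _ a1).1
        have a5 : (0 : ℤ) ≤ (60 * p.1 + c1 : ℤ) * p.2 := by positivity
        left
        omega
    have hN : 0 ≤ Real.log N := Real.log_natCast_nonneg N
    rcases h2 with h2 | h2
    · have h3 := card_primes (S := P.image fun p => 60 * p.1 + c1) h2 fun l hl => by
        obtain ⟨p, hp, rfl⟩ := mem_image.1 hl
        obtain ⟨a1, a2, a3⟩ := hm p hp
        obtain ⟨a4, a5⟩ := hI _ a1
        refine ⟨a5, by omega, Int.natCast_dvd_natCast.1 ⟨60 * p.2 + 2, ?_⟩⟩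
        push_cast
        rw [← a3]
        ring
      rw [card_image_of_injOn fun p hp q hq e => hinj hp hq (by simpa using e)] at h3
      have h4 : Real.log ((60 * y + 2 * c1 + 0 : ℕ) : ℝ) ≤ Real.log N :=
        Real.log_le_log (by exact_mod_cast h2) (by exact_mod_cast (by omega))
      linarith
    · rw [h2, card_empty, Nat.cast_zero]
      linarith
  · have h2 : P.card ≤ I.card := card_le_card_of_injOn _ (fun p hp => (hm p hp).1) hinj
    have h3 : (P.card : ℝ) ≤ I.card := by exact_mod_cast h2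
    exact h3.trans (hc.trans hμ)

/-- the bilinear weight on few points -/
theorem partPhi (hE : LemE) (h4 : GH4) (h : Sz N N' M0 lam) {c1 : ℕ} {μ : ℝ} (hc : c1 < 60)
    (h1 : 60 * N' + 2 * c1 ≤ N) (hμ : Real.log N ≤ 17.7 * μ ∨ 27600000 ≤ μ) {la : ℕ → ℕ → ℝ} (hla : LAll c1 la)
    (hTh : 0.94 * BB N / 16 ≤ Th N) {X : Finset ℕ} (hX : X ⊆ range M0) (hK : (X.card : ℝ) ≤ Real.exp lam / 100)
    (x0 : ℝ) : ∑ r ∈ X, ‖phiH N c1 la (x0 + r / M0)‖ ^ 2 ≤ 23850 * (μ + 0.3) * lam * Th N ^ 2 := by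
  classical
  have hz := Real.exp_pos lam
  have hz1 := exp_lam h.hl
  have hl := h.hl
  have e1 := h.z_le
  have e2 := h.M_ge
  have e3 := h.B_ge
  have e4 := h.M_le
  have e5 : (M0 : ℝ) = N' + 1 := by rw [h.hM]; push_cast; rfl
  have hμ0 : 0 ≤ μ := by
    have := Real.log_natCast_nonneg N
    rcases hμ with hμ | hμ <;> linarith
  have hQ : 1 < BB N / Real.exp lam := by
    rw [one_lt_div hz]
    linarith
  have hQ2 : BB N / Real.exp lam ≤ BB N := div_le_self (by linarith) (by linarith)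
  have hlQ := Real.log_pos hQ
  have hl2 : 0 ≤ Real.log (2 * BB N) := Real.log_nonneg (by linarith)
  have hQ3 : Real.log (2 * BB N) ≤ 4 / 3 * Real.log (BB N / Real.exp lam) := by
    have h2 : Real.log (8 * Real.exp lam ^ 4) ≤ Real.log (BB N) :=
      Real.log_le_log (by positivity) (le_trans (by nlinarith [pow_pos hz 4]) h.hB)
    rw [Real.log_mul (by norm_num) (by positivity), Real.log_pow, Real.log_exp,
      show (8 : ℝ) = 2 ^ 3 by norm_num, Real.log_pow] at h2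
    rw [Real.log_mul (by norm_num) (by linarith), Real.log_div (by linarith) hz.ne', Real.log_exp]
    push_cast at h2
    linarith
  obtain ⟨I, hI, hI'⟩ := exists_II c1
  obtain ⟨b0, hb0, hb1⟩ : ∃ b0 : ℕ, (b0 : ℝ) ≤ BB N / 60 ∧ BB N / 60 < b0 + 1 :=
    ⟨_, Nat.floor_le (by linarith), Nat.lt_floor_add_one _⟩
  have hb2 : 100 ≤ b0 := by
    have : (100 : ℝ) ≤ b0 := by linarith
    exact_mod_cast this
  have hY : ((b0 + 2 : ℕ) : ℝ) + ((b0 + 2) / 10 + 1 : ℕ) ≤ BB N / 50 := by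
    have h2 : 10 * (b0 + 2 + ((b0 + 2) / 10 + 1)) ≤ 11 * b0 + 40 := by omega
    have h3 : (10 : ℝ) * ((b0 + 2 : ℕ) + ((b0 + 2) / 10 + 1 : ℕ)) ≤ 11 * b0 + 40 := by exact_mod_cast h2
    linarith
  set T : Finset ((_ : ℕ) × ℕ × ℕ) :=
    (range 8).sigma fun s => JW N s ×ˢ (range (Ew s)).filter fun i => la s i ≠ 0 with hT
  have h2 : ∀ θ, phiH N c1 la θ = ∑ t ∈ T, ((lw t.2.1 * (la t.1 t.2.2 / Tw t.1) : ℝ) : ℂ) *
      ex (θ * ((t.2.2 * (60 * t.2.1 + 2) + c1 * t.2.1 : ℕ) : ℝ)) := fun θ => by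
    rw [hT, sum_sigma]
    refine sum_congr rfl fun s _ => ?_
    rw [sum_product]
    refine sum_congr rfl fun j _ => ?_
    rw [mul_sum]
    symm
    rw [sum_filter_of_ne]
    · exact sum_congr rfl fun i _ => by rw [Complex.ofReal_mul, mul_assoc]
    · intro i _ hi e
      exact hi (by simp [e])
  simp only [h2]
  refine (dual X (fun r => x0 + r / M0) T _ _ (A := (μ + 0.3) * M0 * (3.9936 * lam / Real.log (BB N / Real.exp lam)))
    (by positivity) fun γ => ?_).trans ?_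
  · have hG : 0 ≤ ∑ r ∈ X, ‖γ r‖ ^ 2 := sum_nonneg fun _ _ => sq_nonneg _
    have h3 : ∑ t ∈ T, ‖∑ r ∈ X, γ r * ex ((x0 + r / M0) * ((t.2.2 * (60 * t.2.1 + 2) + c1 * t.2.1 : ℕ) : ℝ))‖ ^ 2 ≤
        ∑ i ∈ I, ∑ j ∈ JA N, FF X γ x0 M0 ((60 * i + c1 : ℤ) * j + 2 * i) := by
      rw [sum_comm, ← sum_win, hT, sum_sigma]
      refine sum_le_sum fun s hs => ?_
      rw [sum_product]
      refine sum_le_sum fun j _ => ?_
      obtain ⟨a1, a2, -⟩ := win_facts s (mem_range.1 hs)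
      refine le_trans (le_of_eq (sum_congr rfl fun i _ => ?_)) (sum_le_sum_of_subset_of_nonneg (fun i hi => ?_)
        fun _ _ _ => FF_nonneg _ _ _ _ _)
      · unfold FF
        congr 2
        refine sum_congr rfl fun r _ => ?_
        congr 3
        push_cast
        ring
      · obtain ⟨a3, a4, a5⟩ := (hla s (mem_range.1 hs)).2.1 i (mem_filter.1 hi).2
        exact (hI' i).2 ⟨by omega, by omega, a5.1⟩
    refine h3.trans ?_
    have key : ∀ (i : ℕ) (j : ℤ), ‖∑ r ∈ X, γ r * ex ((x0 + r / M0) * (2 * i)) *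
        ex ((x0 + r / M0) * (60 * i + c1) * j)‖ ^ 2 = FF X γ x0 M0 ((60 * i + c1 : ℤ) * j + 2 * i) := fun i j => by
      unfold FF
      congr 2
      refine sum_congr rfl fun r _ => ?_
      rw [mul_assoc, ← ex_add]
      congr 2
      push_cast
      ring
    have h5 : ∀ i ∈ I, ∑ j ∈ JA N, FF X γ x0 M0 ((60 * i + c1 : ℤ) * j + 2 * i) ≤
        (∑ j ∈ Ico ((b0 : ℤ) - ((b0 + 2) / 10 + 1 : ℕ)) (b0 + (b0 + 2 : ℕ) + ((b0 + 2) / 10 + 1 : ℕ)),
          FF X γ x0 M0 ((60 * i + c1 : ℤ) * j + 2 * i) + 1.0014 * BB N * ∑ r ∈ X, ‖γ r‖ ^ 2) *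
          (3.9936 * lam / Real.log (BB N / Real.exp lam)) := fun i _ => by
      have h6 := sieve hE h4 (c := 1) (J := JA N) (j0 := b0) (Y := b0 + 2) hl hQ (by
        have h6 := h.hB
        push_cast
        linarith) (fun j hj => by
          obtain ⟨⟨a1, a2⟩, a3⟩ := mem_JA.1 hj
          have a4 : (b0 : ℝ) < j + 1 := by linarith
          have a5 : (j : ℝ) < 2 * b0 + 2 := by linarith
          have a6 : b0 < j + 1 := by exact_mod_cast a4
          have a7 : j < 2 * b0 + 2 := by exact_mod_cast a5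
          refine ⟨by omega, by omega, a3, hQ2.trans_lt ?_⟩
          push_cast
          exact a1) X (fun r => (x0 + r / M0) * (60 * i + c1)) fun r => γ r * ex ((x0 + r / M0) * (2 * i))
      simp only [key, norm_mul, norm_ex, mul_one] at h6
      refine le_trans (le_of_eq (sum_congr rfl fun j _ => ?_)) (h6.trans (mul_le_mul_of_nonneg_right
        (add_le_add_right (mul_le_mul_of_nonneg_right ?_ hG) _) (by positivity)))
      · rw [← key, Int.cast_natCast]
      · refine (mul_le_mul hK (add_le_add_left (div_le_div_of_nonneg_right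
          (mul_le_mul_of_nonneg_left hY (by norm_num)) hz.le) _) (by positivity) (by positivity)).trans (le_of_eq ?_)
        field_simp
        ring
    refine (sum_le_sum h5).trans ?_
    rw [← sum_mul, sum_add_distrib, sum_const, nsmul_eq_mul, mul_right_comm _ (3.9936 * lam / _)]
    refine mul_le_mul_of_nonneg_right ?_ (by positivity)
    have h6 := sum_mult h1 hμ hI (fun i hi => ((hI' i).1 hi).2)
      (Ico ((b0 : ℤ) - ((b0 + 2) / 10 + 1 : ℕ)) (b0 + (b0 + 2 : ℕ) + ((b0 + 2) / 10 + 1 : ℕ))) (fun i hi j hj => by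
        obtain ⟨a1, a2⟩ := mem_Ico.1 hj
        have a3 := ((hI' i).1 hi).1
        have a4 : 0 ≤ j := by omega
        refine ⟨a4, ?_⟩
        have a5 : (j : ℝ) ≤ b0 + (b0 + 2 : ℕ) + ((b0 + 2) / 10 + 1 : ℕ) := by
          have a5 : (j : ℝ) ≤ (((b0 : ℤ) + (b0 + 2 : ℕ) + ((b0 + 2) / 10 + 1 : ℕ) : ℤ) : ℝ) := Int.cast_le.2 a2.le
          simpa only [Int.cast_add, Int.cast_natCast] using a5
        have a6 : (60 * i + c1 : ℤ) * j ≤ 1656000000 * j := mul_le_mul_of_nonneg_right (by omega) a4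
        have a7 : (1656000000 * j + 55200000 : ℝ) ≤ N' := by linarith
        have a8 : 1656000000 * j + 55200000 ≤ (N' : ℤ) := by exact_mod_cast a7
        omega) _ (FF_nonneg X γ x0 M0)
    have h7 := sum_FF_le h.M_pos hX γ x0 (a := 0) (b := N' + 1) (by rw [h.hM]; push_cast; omega)
    have h8 : (I.card : ℝ) * (1.0014 * BB N) ≤ 0.3 * M0 :=
      (mul_le_mul_of_nonneg_right hI (by positivity)).trans (by linarith)
    have h9 := mul_le_mul_of_nonneg_right h8 hG
    have h10 := mul_le_mul_of_nonneg_left h7 hμ0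
    linarith
  · have h3 : ∑ t ∈ T, (lw t.2.1 * (la t.1 t.2.2 / Tw t.1)) ^ 2 ≤ Th N * (Real.log (2 * BB N) * 2.671e-6) := by
      rw [hT, sum_sigma, Th, sum_mul]
      refine sum_le_sum fun s hs => ?_
      rw [sum_product, sum_mul]
      refine sum_le_sum fun j hj => ?_
      have a1 := Tw_pos' (mem_range.1 hs)
      have a2 : (n2T s : ℝ) ≤ 2671 := by exact_mod_cast (win_facts s (mem_range.1 hs)).2.2.2
      have a3 := (hla s (mem_range.1 hs)).2.2.1
      have a4 : ∑ i ∈ (range (Ew s)).filter fun i => la s i ≠ 0, la s i ^ 2 / Tw s ^ 2 ≤ 2.671e-6 := by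
        rw [← sum_div, div_le_iff₀ (by positivity)]
        refine (sum_le_sum_of_subset_of_nonneg (filter_subset _ _) fun _ _ _ => sq_nonneg _).trans (a3.trans ?_)
        exact mul_le_mul_of_nonneg_right (by linarith) (sq_nonneg _)
      simp only [mul_pow, div_pow]
      rw [← mul_sum, sq, mul_assoc]
      exact mul_le_mul_of_nonneg_left (mul_le_mul (lw_le' hj) a4 (sum_nonneg fun _ _ => by positivity) hl2)
        (lw_nonneg j)
    have hT0 : 0 ≤ Th N := Th_nonneg N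
    refine (mul_le_mul_of_nonneg_left (h3.trans (mul_le_mul_of_nonneg_left
      (mul_le_mul_of_nonneg_right hQ3 (by norm_num)) hT0)) (by positivity)).trans ?_
    have h5 : (μ + 0.3) * M0 * (3.9936 * lam / Real.log (BB N / Real.exp lam)) *
        (Th N * (4 / 3 * Real.log (BB N / Real.exp lam) * 2.671e-6)) =
        (μ + 0.3) * lam * Th N * (5.3248 * 2.671e-6 * M0) := by
      field_simp
      ring
    rw [h5]
    have h6 : 5.3248 * 2.671e-6 * (M0 : ℝ) ≤ 23850 * Th N := by linarith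
    refine (mul_le_mul_of_nonneg_left h6 (by positivity)).trans (le_of_eq (by ring))

end Cfsg.Agent.Depth.R
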