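import Cfsg.Agent.Depth.R.B

/-!
# Depth, the restriction estimate `BoxR` (helper53)
-/

set_option autoImplicit false

namespace Cfsg.Agent.Depth.R

open Finset Cfsg.Agent.Depth.S Cfsg.Agent.Depth.D

variable {N N' M0 : ℕ} {lam : ℝ}

/-- the number of points where `φ̂ - ν̂` is large -/
theorem card_level (hE : LemE) (h4 : GH4) (h : Sz N N' M0 lam) {c1 : ℕ} {μ t : ℝ} (hc : c1 < 60)
    (h1 : 60 * N' + 2 * c1 ≤ N) (hμ : Real.log N ≤ 17.7 * μ ∨ 27600000 ≤ μ) {la : ℕ → ℕ → ℝ} (hla : LAll c1 la)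
    (hTh : 0.94 * BB N / 16 ≤ Th N) (ht : 0 < t) (hn : 24400 * (μ + 0.31) * lam ≤ Real.exp lam / 200 * t ^ 2) (x0 : ℝ) :
    ((((range M0).filter fun r : ℕ => t < ‖phiH N c1 la (x0 + r / M0) - nuH N c1 (x0 + r / M0)‖ / Th N).card : ℕ) : ℝ) ≤
      Real.exp lam / 200 := by
  by_contra hc'
  have hz1 := exp_lam h.hl
  have hl := h.hl
  have e3 := h.B_ge
  have hT : 0 < Th N := by linarith
  have hμ0 : 0 ≤ μ := by
    have := Real.log_natCast_nonneg N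
    rcases hμ with hμ | hμ <;> linarith
  obtain ⟨X, hX, hK⟩ := exists_subset_card_eq (Nat.succ_le_of_lt ((Nat.floor_lt (by positivity)).2 (not_le.1 hc')))
  have k1 : Real.exp lam / 200 < X.card := by
    rw [hK]
    exact_mod_cast Nat.lt_floor_add_one _
  have k2 : (X.card : ℝ) ≤ Real.exp lam / 100 := by
    rw [hK, Nat.cast_succ]
    have := Nat.floor_le (show 0 ≤ Real.exp lam / 200 by positivity)
    linarith
  have hX' : X ⊆ range M0 := hX.trans (filter_subset _ _)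
  have h2 := partPhi hE h4 h hc h1 hμ hla hTh hX' k2 x0
  have h3 : ∑ r ∈ X, ‖nuH N c1 (x0 + r / M0)‖ ^ 2 ≤ 9 * Th N ^ 2 :=
    (sum_le_sum_of_subset_of_nonneg hX' fun _ _ _ => sq_nonneg _).trans (partNu h c1 x0)
  have h5 : ∑ _r ∈ X, t ^ 2 * Th N ^ 2 ≤
      ∑ r ∈ X, (1.02 * ‖phiH N c1 la (x0 + r / M0)‖ ^ 2 + 51 * ‖nuH N c1 (x0 + r / M0)‖ ^ 2) :=
    sum_le_sum fun r hr => by
      have a1 := (lt_div_iff₀ hT).1 (mem_filter.1 (hX hr)).2
      have a2 := pow_le_pow_left₀ (by positivity) (a1.le.trans (norm_sub_le _ _)) 2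
      nlinarith [sq_nonneg (‖phiH N c1 la (x0 + r / M0)‖ - 50 * ‖nuH N c1 (x0 + r / M0)‖)]
  rw [sum_const, nsmul_eq_mul, sum_add_distrib, ← mul_sum, ← mul_sum] at h5
  have h6 : Real.exp lam / 200 * t ^ 2 < X.card * t ^ 2 := mul_lt_mul_of_pos_right k1 (by positivity)
  have h7 : 1.02 * (23850 * (μ + 0.3) * lam) + 51 * 9 < X.card * t ^ 2 := by nlinarith
  have h8 := mul_lt_mul_of_pos_right h7 (show 0 < Th N ^ 2 by positivity)
  nlinarith

theorem num_level {l0 μ η : ℝ} (h1 : 29 ≤ l0) (hμ : 0 ≤ μ) (hη : 0.0033 ≤ η)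
    (h3 : 24400 * (μ + 0.31) * l0 ≤ Real.exp l0 / 200 * 0.0033 ^ 2) (m : ℕ) :
    24400 * (μ + 0.31) * (l0 + 1.44 * m) ≤ Real.exp (l0 + 1.44 * m) / 200 * (η * (1 / 2) ^ m) ^ 2 := by
  have a1 : (4.2 : ℝ) ≤ Real.exp 1.44 := by
    have b1 := Real.sum_le_exp_of_nonneg (show (0 : ℝ) ≤ 0.44 by norm_num) 4
    have b2 := Real.exp_one_gt_d9
    rw [show (1.44 : ℝ) = 1 + 0.44 by norm_num, Real.exp_add]
    simp only [sum_range_succ, Nat.factorial] at b1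
    norm_num at b1
    nlinarith
  have a2 : 1 + m * (0.05 : ℝ) ≤ Real.exp (1.44 * m) * ((1 / 2) ^ m) ^ 2 := by
    rw [mul_comm 1.44, Real.exp_nat_mul, ← pow_mul, mul_comm m 2, pow_mul, ← mul_pow]
    exact (one_add_mul_le_pow (by norm_num) m).trans (pow_le_pow_left₀ (by norm_num) (by linarith) m)
  have a3 : (0.0033 : ℝ) ^ 2 ≤ η ^ 2 := pow_le_pow_left₀ (by norm_num) hη 2
  have a4 : l0 + 1.44 * m ≤ l0 * (1 + m * 0.05) := by nlinarith [Nat.cast_nonneg (α := ℝ) m]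
  have a5 := Real.exp_pos l0
  calc 24400 * (μ + 0.31) * (l0 + 1.44 * m) ≤ 24400 * (μ + 0.31) * l0 * (1 + m * 0.05) := by
        rw [mul_assoc _ l0]
        exact mul_le_mul_of_nonneg_left a4 (by positivity)
    _ ≤ Real.exp l0 / 200 * η ^ 2 * (Real.exp (1.44 * m) * ((1 / 2) ^ m) ^ 2) :=
        mul_le_mul (h3.trans (mul_le_mul_of_nonneg_left a3 (by positivity))) a2 (by positivity) (by positivity)
    _ = _ := by rw [Real.exp_add]; ring

theorem sz_of (h1 : 29 ≤ lam) (h2 : 4 * lam ≤ Real.log N - 26.7) (lo : 60 * N' ≤ N) (up : N ≤ 60 * N' + 238) :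
    Sz N N' (N' + 1) lam := by
  refine ⟨h1, ?_, lo, up, rfl⟩
  have hN : (0 : ℝ) < N := by
    rcases Nat.eq_zero_or_pos N with h | h
    · rw [h, Nat.cast_zero, Real.log_zero] at h2
      linarith
    · exact_mod_cast h
  have a1 : Real.exp lam ^ 4 * Real.exp 26.7 ≤ N := by
    rw [← Real.exp_nat_mul, ← Real.exp_add, ← Real.le_log_iff_exp_le hN]
    push_cast
    linarith
  have a2 := exp_ge 26 (show (0 : ℝ) ≤ 0.7 by norm_num)
  have a3 : (360510000000 : ℝ) ≤ Real.exp 26.7 := le_trans (by norm_num) (a2.trans (le_of_eq (by norm_num)))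
  have a4 := mul_le_mul_of_nonneg_left a3 (pow_pos (Real.exp_pos lam) 4).le
  rw [N_eq] at a1
  linarith

/-- the estimate on one shifted grid -/
theorem shift (hE : LemE) (h4 : GH4) {c1 c3 c4 M : ℕ} {la : ℕ → ℕ → ℝ} {w : ℕ → ℝ} {U η : ℝ}
    (hN : N = 60 * N' + 2 * c1 + c3 + c4 + 2) (k1 : c1 < 60) (k3 : c3 < 60) (k4 : c4 < 60) (hla : LAll c1 la)
    (hw : MFacts N N' c1 c3 c4 w U) (hTh : 0.94 * BB N / 16 ≤ Th N) (hM : N' + 1 ≤ M) (hη : 0.0033 ≤ η)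
    {l0 μ ρ C : ℝ} {n : ℕ} (h1 : 29 ≤ l0) (h2 : 4 * (l0 + 1.44 * n) ≤ Real.log N - 26.7)
    (h3 : 24400 * (μ + 0.31) * l0 ≤ Real.exp l0 / 200 * 0.0033 ^ 2) (hμ : Real.log N ≤ 17.7 * μ ∨ 27600000 ≤ μ)
    (hρ : 0 ≤ ρ) (h5 : 0.2736 * Real.log N - 0.24 ≤ ρ * (Real.log N - 8.02 - (l0 + 1.44 * n)))
    (h6 : 4.1734 * ρ * ((l0 + 2 * 1.44) * (1 - (1 / 2) ^ n)) + (1 / 2) ^ n * (0.2736 * Real.log N - 0.24) ≤ C)
    (x0 : ℝ) :
    ∑ r ∈ range (N' + 1), min η (‖phiH N c1 la (x0 + r / (N' + 1 : ℕ)) - nuH N c1 (x0 + r / (N' + 1 : ℕ))‖ / Th N) *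
      (‖SS M (aw c3 w) (x0 + r / (N' + 1 : ℕ))‖ * ‖SS M (aw c4 w) (x0 + r / (N' + 1 : ℕ))‖) ≤
      (N' + 1 : ℕ) * η * C * U := by
  obtain ⟨hU, -, hw1, -, hw3, hw4⟩ := hw
  have hη0 : 0 < η := by linarith
  have hμ0 : 0 ≤ μ := by
    have := Real.log_natCast_nonneg N
    rcases hμ with hμ | hμ <;> linarith
  set D : ℕ → ℝ := fun r => ‖phiH N c1 la (x0 + r / (N' + 1 : ℕ)) - nuH N c1 (x0 + r / (N' + 1 : ℕ))‖ / Th N with hD
  set S : ℕ → ℝ := fun r => ‖SS M (aw c3 w) (x0 + r / (N' + 1 : ℕ))‖ * ‖SS M (aw c4 w) (x0 + r / (N' + 1 : ℕ))‖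
    with hS
  have hS0 : ∀ r, 0 ≤ S r := fun r => mul_nonneg (norm_nonneg _) (norm_nonneg _)
  have am : ∀ (X : Finset ℕ) (b : ℝ), ∑ r ∈ X, ‖SS M (aw c3 w) (x0 + r / (N' + 1 : ℕ))‖ ^ 2 ≤ b →
      ∑ r ∈ X, ‖SS M (aw c4 w) (x0 + r / (N' + 1 : ℕ))‖ ^ 2 ≤ b → ∑ r ∈ X, S r ≤ b := fun X b a1 a2 => by
    have a3 : ∑ r ∈ X, 2 * S r ≤ ∑ r ∈ X, (‖SS M (aw c3 w) (x0 + r / (N' + 1 : ℕ))‖ ^ 2 +
        ‖SS M (aw c4 w) (x0 + r / (N' + 1 : ℕ))‖ ^ 2) := sum_le_sum fun r _ => by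
      rw [hS, ← mul_assoc]
      exact two_mul_le_add_sq _ _
    rw [← mul_sum, sum_add_distrib] at a3
    linarith
  have par : ∀ c, ∑ u ∈ range (N' + 1), aw c w u ^ 2 ≤ (0.2736 * Real.log N - 0.24) * U →
      ∑ r ∈ range (N' + 1), ‖SS M (aw c w) (x0 + r / (N' + 1 : ℕ))‖ ^ 2 ≤
        (N' + 1 : ℕ) * ((0.2736 * Real.log N - 0.24) * U) := fun c hc => by
    simp only [SS_eq hM hw1]
    rw [parseval_range (Nat.succ_pos _) le_rfl]
    simp only [Complex.norm_real, Real.norm_eq_abs, sq_abs]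
    exact mul_le_mul_of_nonneg_left hc (Nat.cast_nonneg _)
  have lev : ∀ k ∈ range n, ∑ r ∈ (range (N' + 1)).filter fun r => η * (1 / 2) ^ (k + 1) < D r, S r ≤
      (N' + 1 : ℕ) * U * (4.1734 * ρ) * (l0 + 1.44 * (k + 1 : ℕ)) := fun k hk => by
    have a1 : ((k + 1 : ℕ) : ℝ) ≤ n := by exact_mod_cast mem_range.1 hk
    have a2 : (0 : ℝ) ≤ (k + 1 : ℕ) := Nat.cast_nonneg _
    have hz : Sz N N' (N' + 1) (l0 + 1.44 * (k + 1 : ℕ)) := sz_of (by linarith) (by linarith) (by omega) (by omega)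
    have a3 := card_level hE h4 hz k1 (by omega) hμ hla hTh (t := η * (1 / 2) ^ (k + 1)) (by positivity)
      (num_level h1 hμ0 hη h3 (k + 1)) x0
    have a4 : 0 < Real.log N - 8.02 - (l0 + 1.44 * (k + 1 : ℕ)) := by linarith
    have a5 : ∀ c, ∑ u ∈ range (N' + 1), aw c w u ^ 2 ≤ (0.2736 * Real.log N - 0.24) * U →
        ∑ r ∈ (range (N' + 1)).filter fun r => η * (1 / 2) ^ (k + 1) < D r,
          ‖SS M (aw c w) (x0 + r / (N' + 1 : ℕ))‖ ^ 2 ≤
          (N' + 1 : ℕ) * U * (4.1734 * ρ) * (l0 + 1.44 * (k + 1 : ℕ)) := fun c hc => by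
      refine (partA hE h4 hz hM hw1 (filter_subset _ _) a3 x0 a4).trans ?_
      have b1 : 0.2736 * Real.log N - 0.24 ≤ ρ * (Real.log N - 8.02 - (l0 + 1.44 * (k + 1 : ℕ))) :=
        h5.trans (mul_le_mul_of_nonneg_left (by linarith) hρ)
      have b2 : 0 < l0 + 1.44 * (k + 1 : ℕ) := by linarith
      refine (mul_le_mul_of_nonneg_left (hc.trans (mul_le_mul_of_nonneg_right b1 hU.le)) (by positivity)).trans
        (le_of_eq ?_)
      field_simp
    exact am _ _ (a5 c3 hw3) (a5 c4 hw4)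
  have h7 : ∑ r ∈ range (N' + 1), min η (D r) * S r ≤ ∑ r ∈ range (N' + 1),
      (∑ k ∈ range n, (if η * (1 / 2) ^ (k + 1) < D r then η * (1 / 2) ^ (k + 1) * S r else 0) +
        η * (1 / 2) ^ n * S r) := sum_le_sum fun r _ => by
    refine (mul_le_mul_of_nonneg_right ((levels η (D r) n).trans (add_le_add_right (min_le_left _ _) _))
      (hS0 r)).trans (le_of_eq ?_)
    rw [add_mul, sum_mul]
    simp only [ite_mul, zero_mul]
  refine h7.trans ?_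
  rw [sum_add_distrib, sum_comm, ← mul_sum]
  have h8 : ∑ k ∈ range n, ∑ r ∈ range (N' + 1),
      (if η * (1 / 2) ^ (k + 1) < D r then η * (1 / 2) ^ (k + 1) * S r else 0) ≤
      η * ((N' + 1 : ℕ) * U * (4.1734 * ρ)) * ((l0 + 2 * 1.44) * (1 - (1 / 2) ^ n)) := by
    refine le_trans ?_ (mul_le_mul_of_nonneg_left (sum_levels l0 1.44 (by norm_num) n) (by positivity))
    rw [mul_sum]
    refine sum_le_sum fun k hk => ?_
    rw [← sum_filter, ← mul_sum]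
    refine (mul_le_mul_of_nonneg_left (lev k hk) (by positivity)).trans (le_of_eq (by ring))
  have h9 := mul_le_mul_of_nonneg_left (am _ _ (par c3 hw3) (par c4 hw4)) (show 0 ≤ η * (1 / 2) ^ n by positivity)
  have h10 := mul_le_mul_of_nonneg_left h6 (show 0 ≤ ((N' + 1 : ℕ) : ℝ) * η * U by positivity)
  linarith

theorem sum_range_split (f : ℕ → ℝ) (a b : ℕ) :
    ∑ k ∈ range (a * b), f k = ∑ r ∈ range b, ∑ k ∈ range a, f (k * b + r) := by
  rw [sum_comm]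
  induction a with
  | zero => simp
  | succ a ih => rw [Nat.succ_mul, sum_range_add, ih, sum_range_succ]

/-- the choice of the parameters -/
theorem params {L : ℝ} (hL : 190 ≤ L) : ∃ (l0 μ ρ : ℝ) (n : ℕ), 29 ≤ l0 ∧ 4 * (l0 + 1.44 * n) ≤ L - 26.7 ∧
    24400 * (μ + 0.31) * l0 ≤ Real.exp l0 / 200 * 0.0033 ^ 2 ∧ (L ≤ 17.7 * μ ∨ 27600000 ≤ μ) ∧ 0 ≤ ρ ∧
    0.2736 * L - 0.24 ≤ ρ * (L - 8.02 - (l0 + 1.44 * n)) ∧
    4.1734 * ρ * ((l0 + 2 * 1.44) * (1 - (1 / 2) ^ n)) + (1 / 2) ^ n * (0.2736 * L - 0.24) ≤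
      if L ≤ 10 ^ 6 then 56 else 61 := by
  have e1 : 24400 * (17 + 0.31) * (33.5 : ℝ) ≤ Real.exp 33.5 / 200 * 0.0033 ^ 2 := by
    have a := exp_ge 33 (show (0 : ℝ) ≤ 0.5 by norm_num)
    have b : (300000000000000 : ℝ) ≤ Real.exp 33.5 := le_trans (by norm_num) (a.trans (le_of_eq (by norm_num)))
    linarith
  by_cases c1 : L ≤ 205.5
  · refine ⟨33.5, 17, 1, 0, by norm_num, by push_cast; linarith, e1, Or.inl (by linarith), zero_le_one,
      by push_cast; linarith, ?_⟩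
    rw [if_pos (by linarith)]
    linarith
  by_cases c2 : L ≤ 300
  · refine ⟨33.5, 17, 0.3572, 5, by norm_num, by push_cast; linarith, e1, Or.inl (by linarith), by norm_num,
      by push_cast; linarith, ?_⟩
    rw [if_pos (by linarith)]
    linarith
  by_cases c3 : L ≤ 2000
  · refine ⟨35.5, 113, 0.3361, 9, by norm_num, by push_cast; linarith, ?_, Or.inl (by linarith), by norm_num,
      by push_cast; linarith, ?_⟩
    · have a := exp_ge 35 (show (0 : ℝ) ≤ 0.5 by norm_num)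
      have b : (2000000000000000 : ℝ) ≤ Real.exp 35.5 := le_trans (by norm_num) (a.trans (le_of_eq (by norm_num)))
      linarith
    · rw [if_pos (by linarith)]
      linarith
  by_cases c4 : L ≤ 10 ^ 6
  · refine ⟨42, 56500, 0.2848, 20, by norm_num, by push_cast; linarith, ?_, Or.inl (by linarith), by norm_num,
      by push_cast; linarith, ?_⟩
    · have a := exp_nat_ge 42
      have b : (1500000000000000000 : ℝ) ≤ Real.exp 42 := le_trans (by norm_num) (a.trans (le_of_eq (by norm_num)))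
      linarith
    · rw [if_pos c4]
      linarith
  · have a1 := Nat.le_ceil (L / 1000)
    have a2 := Nat.ceil_lt_add_one (show 0 ≤ L / 1000 by linarith)
    generalize ⌈L / 1000⌉₊ = m at a1 a2
    refine ⟨48, 27600000, 0.2745, 2 * m, by norm_num, by push_cast; linarith, ?_, Or.inr le_rfl, by norm_num,
      by push_cast; linarith, ?_⟩
    · have a := exp_nat_ge 48
      have b : (650000000000000000000 : ℝ) ≤ Real.exp 48 := le_trans (by norm_num) (a.trans (le_of_eq (by norm_num)))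
      linarith
    · rw [if_neg c4]
      have a3 : (m : ℝ) ≤ 2 ^ m := by exact_mod_cast Nat.lt_two_pow_self.le
      have a4 : L ≤ (2 : ℝ) ^ (2 * m) := by
        rw [mul_comm, pow_mul]
        nlinarith
      have a5 : (1 / 2 : ℝ) ^ (2 * m) * L ≤ 1 := by
        rw [one_div, inv_pow, inv_mul_le_iff₀ (by positivity), mul_one]
        exact a4
      have a6 : 0 ≤ (1 / 2 : ℝ) ^ (2 * m) := by positivity
      linarith

/-- **the restriction estimate** -/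
theorem boxR (hE : LemE) (h4 : GH4) : BoxR := by
  intro N N' c1 c3 c4 M1 la w U η hL hN k1 k3 k4 hla hw hTh hM hη _
  obtain ⟨l0, μ, ρ, n, h1, h2, h3, hμ, hρ, h5, h6⟩ := params hL
  rw [sum_range_split]
  have key : ∀ k r : ℕ, ((k * M1 + r : ℕ) : ℝ) / ((N' + 1) * M1 : ℕ) = r / ((N' + 1) * M1 : ℕ) + k / (N' + 1 : ℕ) := by
    intro k r
    have : (0 : ℝ) < M1 := by exact_mod_cast hM
    push_cast
    field_simp
    ring
  simp only [key]
  refine (sum_le_sum fun r _ => shift hE h4 hN k1 k3 k4 hla hw hTh (Nat.le_mul_of_pos_right _ hM) hη h1 h2 h3 hμ hρ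
    h5 h6 _).trans (le_of_eq ?_)
  rw [sum_const, card_range, nsmul_eq_mul]
  push_cast
  ring

end Cfsg.Agent.Depth.R
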